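import Groth.Agent.Pi1.H386.WittBase

/-!
# A complete discrete valuation ring of characteristic zero with a given perfect residue field
-/

set_option autoImplicit false
universe u

namespace Groth.Agent.Pi1.H538.DvrBase

open Groth.Agent.Pi1.H386.WittBase

theorem exists_dvr (p : ℕ) [Fact p.Prime] (k : Type u) [Field k] [CharP k p] [PerfectRing k p] :
    ∃ (A : Type u) (_ : CommRing A) (_ : IsDomain A) (_ : IsDiscreteValuationRing A)
      (_ : IsAdicComplete (IsLocalRing.maximalIdeal A) A) (_ : CharZero A),
      Nonempty (IsLocalRing.ResidueField A ≃+* k) := by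
  have hp : IsLocalRing.maximalIdeal (WittVector p k) = Ideal.span {(p : WittVector p k)} := by
    exact (IsDiscreteValuationRing.irreducible_iff_uniformizer _).mp (WittVector.irreducible p)
  have hc : IsAdicComplete (IsLocalRing.maximalIdeal (WittVector p k)) (WittVector p k) := by
    rw [hp]; infer_instance
  refine ⟨WittVector p k, inferInstance, inferInstance, inferInstance, hc,
    charZero_witt p k, ?_⟩
  refine ⟨(Ideal.quotEquivOfEq hp).trans ?_⟩
  exact WittVector.quotientPEquiv

end Groth.Agent.Pi1.H538.DvrBase
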