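import Mathlib.Topology.Algebra.Group.Basic
import Mathlib.Topology.Algebra.ContinuousMonoidHom
import Mathlib.Topology.Algebra.OpenSubgroup
import Mathlib.Algebra.Group.Subgroup.Finite
import Mathlib.Algebra.Group.PUnit
import Mathlib.GroupTheory.Index
import Mathlib.Algebra.Field.Basic
import Mathlib.SetTheory.Cardinal.Finite

/-!
# Homomorphisms of profinite groups inducing bijections on homomorphisms to finite groups of good order

`φ : Γ' →* Γ` a continuous homomorphism, `P` a class of orders closed under divisors and products (for instance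
invertibility in a field).

* `HomBij P φ`: homomorphisms with open kernel to finite `P`-groups extend uniquely along `φ`;
* `Dom P φ`: `Γ'` and `Γ` have the same image under homomorphisms from `Γ` to finite `P`-groups;
* `dom_of_homBij`, `homBij_of_conj` (it is enough to know bijectivity up to conjugation, that is on `H¹`);
* `exists_approx`: elements of `Γ` are congruent to elements of `Γ'` modulo all `P`-homomorphisms.
-/

set_option autoImplicit false

universe u v w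

namespace Groth.Agent.Pi1.H538.ProP

/-- A class of orders closed under divisors and products. -/
structure Formation (P : ℕ → Prop) : Prop where
  one : P 1
  dvd : ∀ {a b : ℕ}, a ∣ b → P b → P a
  mul : ∀ {a b : ℕ}, P a → P b → P (a * b)

theorem formation_isUnit (k : Type*) [Field k] : Formation fun m => IsUnit ((m : ℕ) : k) where
  one := by
    rw [Nat.cast_one]
    exact isUnit_one
  dvd {a b} h hb := isUnit_of_dvd_unit (by
    obtain ⟨c, rfl⟩ := h
    exact ⟨c, by push_cast; rfl⟩) hb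
  mul {a b} ha hb := by
    rw [Nat.cast_mul]
    exact ha.mul hb

section Def

variable (P : ℕ → Prop) {Γ : Type u} {Γ' : Type v} [Group Γ] [TopologicalSpace Γ] [Group Γ']
  [TopologicalSpace Γ'] (φ : Γ' →* Γ)

/-- Homomorphisms with open kernel to finite groups of order in `P` extend uniquely along `φ`. -/
def HomBij : Prop :=
  ∀ (G : Type) [Group G] [Finite G], P (Nat.card G) → ∀ θ' : Γ' →* G, IsOpen (θ'.ker : Set Γ') →
    ∃! θ : Γ →* G, IsOpen (θ.ker : Set Γ) ∧ θ.comp φ = θ'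

/-- The same image under homomorphisms to finite groups of order in `P`. -/
def Dom : Prop :=
  ∀ (G : Type) [Group G] [Finite G], P (Nat.card G) → ∀ θ : Γ →* G, IsOpen (θ.ker : Set Γ) →
    ∀ x : Γ, ∃ x' : Γ', θ (φ x') = θ x

end Def

section Basic

variable {P : ℕ → Prop} {Γ : Type u} {Γ' : Type v} [Group Γ] [TopologicalSpace Γ] [Group Γ']
  [TopologicalSpace Γ'] {φ : Γ' →* Γ}

lemma isOpen_ker_comp (hφ : Continuous φ) {G : Type w} [Group G] {θ : Γ →* G}
    (h : IsOpen (θ.ker : Set Γ)) : IsOpen ((θ.comp φ).ker : Set Γ') := by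
  have h1 : ((θ.comp φ).ker : Set Γ') = φ ⁻¹' (θ.ker : Set Γ) := rfl
  rw [h1]
  exact h.preimage hφ

lemma card_subgroup_of {G : Type w} [Group G] [Finite G] (hP : Formation P) (h : P (Nat.card G))
    (H : Subgroup G) : P (Nat.card H) := hP.dvd H.card_subgroup_dvd_card h

lemma isOpen_ker_injective_comp {G : Type w} {G' : Type*} [Group G] [Group G'] (i : G →* G')
    {θ : Γ →* G} (h : IsOpen (θ.ker : Set Γ)) (hi : Function.Injective i) :
    IsOpen ((i.comp θ).ker : Set Γ) := by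
  have h1 : (i.comp θ).ker = θ.ker := by
    ext x
    rw [MonoidHom.mem_ker, MonoidHom.mem_ker, MonoidHom.comp_apply, map_eq_one_iff i hi]
  rwa [h1]

/-- Unique extendability of homomorphisms implies that the images agree. -/
theorem dom_of_homBij (hP : Formation P) (hφ : Continuous φ) (h : HomBij P φ) : Dom P φ := by
  intro G _ _ hG θ hθ x
  let H : Subgroup G := (θ.comp φ).range
  let θ' : Γ' →* H := (θ.comp φ).rangeRestrict
  have hθ' : IsOpen (θ'.ker : Set Γ') := by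
    have h1 : θ'.ker = (θ.comp φ).ker := MonoidHom.ker_rangeRestrict _
    rw [h1]
    exact isOpen_ker_comp hφ hθ
  obtain ⟨θ₁, ⟨h1, h2⟩, -⟩ := h H (card_subgroup_of hP hG H) θ' hθ'
  obtain ⟨θ₂, -, h3⟩ := h G hG (θ.comp φ) (isOpen_ker_comp hφ hθ)
  have h4 : θ = θ₂ := h3 θ ⟨hθ, rfl⟩
  have h5 : H.subtype.comp θ₁ = θ₂ := by
    refine h3 _ ⟨isOpen_ker_injective_comp _ h1 H.subtype_injective, ?_⟩
    rw [MonoidHom.comp_assoc, h2]
    rfl
  have h6 : θ x = (θ₁ x : G) := by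
    rw [h4, ← h5]
    rfl
  obtain ⟨x', hx'⟩ := (θ₁ x).2
  exact ⟨x', hx'.trans h6.symm⟩

lemma isOpen_ker_conj {G : Type w} [Group G] {θ : Γ →* G} (h : IsOpen (θ.ker : Set Γ)) (g : G) :
    IsOpen (((MulAut.conj g).toMonoidHom.comp θ).ker : Set Γ) :=
  isOpen_ker_injective_comp _ h (MulAut.conj g).injective

/-- Bijectivity up to conjugation is enough. -/
theorem dom_of_conj (hP : Formation P) (hφ : Continuous φ)
    (hsurj : ∀ (G : Type) [Group G] [Finite G], P (Nat.card G) → ∀ θ' : Γ' →* G,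
      IsOpen (θ'.ker : Set Γ') →
      ∃ (θ : Γ →* G) (g : G), IsOpen (θ.ker : Set Γ) ∧ ∀ x', θ (φ x') = g * θ' x' * g⁻¹)
    (hinj : ∀ (G : Type) [Group G] [Finite G], P (Nat.card G) → ∀ θ₁ θ₂ : Γ →* G,
      IsOpen (θ₁.ker : Set Γ) → IsOpen (θ₂.ker : Set Γ) → (∀ x', θ₁ (φ x') = θ₂ (φ x')) →
      ∃ g : G, ∀ x, θ₁ x = g * θ₂ x * g⁻¹) : Dom P φ := by
  intro G _ _ hG θ hθ x
  let H : Subgroup G := (θ.comp φ).range
  let θ' : Γ' →* H := (θ.comp φ).rangeRestrict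
  have hθ' : IsOpen (θ'.ker : Set Γ') := by
    have h1 : θ'.ker = (θ.comp φ).ker := MonoidHom.ker_rangeRestrict _
    rw [h1]
    exact isOpen_ker_comp hφ hθ
  obtain ⟨θ₁, u, h1, h2⟩ := hsurj H (card_subgroup_of hP hG H) θ' hθ'
  let θ₂ : Γ →* H := (MulAut.conj u⁻¹).toMonoidHom.comp θ₁
  have hθ₂ : IsOpen (θ₂.ker : Set Γ) := isOpen_ker_conj h1 _
  obtain ⟨w, hw⟩ := hinj G hG θ (H.subtype.comp θ₂) hθ
    (isOpen_ker_injective_comp _ hθ₂ H.subtype_injective) (by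
      intro x'
      have h3 : θ₂ (φ x') = θ' x' := by
        change u⁻¹ * θ₁ (φ x') * u⁻¹⁻¹ = θ' x'
        rw [h2, inv_inv]
        simp [mul_assoc]
      change θ (φ x') = ((θ₂ (φ x') : H) : G)
      rw [h3]
      rfl)
  have hle : H ≤ θ.range := by
    rintro _ ⟨x', rfl⟩
    exact ⟨φ x', rfl⟩
  have hcard : Nat.card θ.range ≤ Nat.card H := by
    have hsub : Nat.card θ.range ≤ Nat.card θ₂.range := by
      refine Nat.card_le_card_of_surjective
        (fun y : θ₂.range => (⟨w * (y : H) * w⁻¹, ?_⟩ : θ.range)) ?_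
      · obtain ⟨_, z, rfl⟩ := y
        exact ⟨z, hw z⟩
      · rintro ⟨_, z, rfl⟩
        exact ⟨⟨θ₂ z, z, rfl⟩, Subtype.ext (hw z).symm⟩
    exact hsub.trans (Nat.card_le_card_of_injective _ θ₂.range.subtype_injective)
  have heq : H = θ.range := Subgroup.eq_of_le_of_card_ge hle hcard
  have hx : θ x ∈ H := by
    rw [heq]
    exact ⟨x, rfl⟩
  obtain ⟨x', hx'⟩ := hx
  exact ⟨x', hx'⟩

/-- Bijectivity up to conjugation is enough. -/
theorem homBij_of_conj (hP : Formation P) (hφ : Continuous φ)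
    (hsurj : ∀ (G : Type) [Group G] [Finite G], P (Nat.card G) → ∀ θ' : Γ' →* G,
      IsOpen (θ'.ker : Set Γ') →
      ∃ (θ : Γ →* G) (g : G), IsOpen (θ.ker : Set Γ) ∧ ∀ x', θ (φ x') = g * θ' x' * g⁻¹)
    (hinj : ∀ (G : Type) [Group G] [Finite G], P (Nat.card G) → ∀ θ₁ θ₂ : Γ →* G,
      IsOpen (θ₁.ker : Set Γ) → IsOpen (θ₂.ker : Set Γ) → (∀ x', θ₁ (φ x') = θ₂ (φ x')) →
      ∃ g : G, ∀ x, θ₁ x = g * θ₂ x * g⁻¹) : HomBij P φ := by
  have hdom := dom_of_conj hP hφ hsurj hinj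
  intro G _ _ hG θ' hθ'
  obtain ⟨θ, u, h1, h2⟩ := hsurj G hG θ' hθ'
  refine ⟨(MulAut.conj u⁻¹).toMonoidHom.comp θ, ⟨isOpen_ker_conj h1 _, ?_⟩, ?_⟩
  · ext x'
    change u⁻¹ * θ (φ x') * u⁻¹⁻¹ = θ' x'
    rw [h2, inv_inv]
    simp [mul_assoc]
  · rintro θ₁ ⟨h3, h4⟩
    have h5 : ∀ x', θ₁ (φ x') = ((MulAut.conj u⁻¹).toMonoidHom.comp θ) (φ x') := by
      intro x'
      have h6 : θ₁ (φ x') = θ' x' := by rw [← h4]; rfl
      rw [h6]
      change _ = u⁻¹ * θ (φ x') * u⁻¹⁻¹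
      rw [h2, inv_inv]
      simp [mul_assoc]
    obtain ⟨g, hg⟩ := hinj G hG θ₁ _ h3 (isOpen_ker_conj h1 _) h5
    ext x
    obtain ⟨x', hx'⟩ := hdom G hG _ (isOpen_ker_conj h1 u⁻¹) x
    have h7 := hg (φ x')
    rw [h5, hx'] at h7
    rw [hg x]
    exact h7.symm

omit [TopologicalSpace Γ'] in
/-- `P`-homomorphisms that agree on `Γ'` agree. -/
theorem Dom.hom_ext (hP : Formation P) (h : Dom P φ) {G : Type} [Group G] [Finite G]
    (hG : P (Nat.card G)) {θ₁ θ₂ : Γ →* G} (h1 : IsOpen (θ₁.ker : Set Γ))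
    (h2 : IsOpen (θ₂.ker : Set Γ)) (he : θ₁.comp φ = θ₂.comp φ) : θ₁ = θ₂ := by
  ext x
  have hker : IsOpen ((θ₁.prod θ₂).ker : Set Γ) := by
    have h3 : ((θ₁.prod θ₂).ker : Set Γ) = (θ₁.ker : Set Γ) ∩ (θ₂.ker : Set Γ) := by
      ext y
      simp [MonoidHom.mem_ker, Prod.ext_iff]
    rw [h3]
    exact h1.inter h2
  obtain ⟨x', hx'⟩ := h (G × G) (by rw [Nat.card_prod]; exact hP.mul hG hG) (θ₁.prod θ₂) hker x
  have h3 : θ₁ (φ x') = θ₁ x := congrArg Prod.fst hx'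
  have h4 : θ₂ (φ x') = θ₂ x := congrArg Prod.snd hx'
  rw [← h3, ← h4]
  exact DFunLike.congr_fun he x'

/-- Elements of `Γ` are approximated by elements of `Γ'`. -/
theorem exists_approx (hP : Formation P) [IsTopologicalGroup Γ] [CompactSpace Γ']
    (hφ : Continuous φ) (h : Dom P φ) (x : Γ) :
    ∃ x' : Γ', ∀ (G : Type) [Group G] [Finite G], P (Nat.card G) → ∀ θ : Γ →* G,
      IsOpen (θ.ker : Set Γ) → θ (φ x') = θ x := by
  let 𝒩 : Set (Subgroup Γ) := {N | ∃ (G : Type) (_ : Group G) (_ : Finite G), P (Nat.card G) ∧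
    ∃ θ : Γ →* G, IsOpen (θ.ker : Set Γ) ∧ θ.ker = N}
  let C : 𝒩 → Set Γ' := fun N => {x' | x⁻¹ * φ x' ∈ N.1}
  have hne : Nonempty 𝒩 := ⟨⟨⊤, Multiplicative Unit, inferInstance, inferInstance, by
    rw [Nat.card_unique]; exact hP.one, 1, by simp, by simp⟩⟩
  have hclosed : ∀ N : 𝒩, IsClosed (C N) := by
    rintro ⟨N, G, _, _, hG, θ, hθ, rfl⟩
    have h1 : IsClosed (θ.ker : Set Γ) := Subgroup.isClosed_of_isOpen _ hθ
    exact h1.preimage (by fun_prop : Continuous fun x' : Γ' => x⁻¹ * φ x')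
  have hdir : Directed (· ⊇ ·) C := by
    rintro ⟨N₁, G₁, _, _, hG₁, θ₁, hθ₁, rfl⟩ ⟨N₂, G₂, _, _, hG₂, θ₂, hθ₂, rfl⟩
    have hk : (θ₁.prod θ₂).ker = θ₁.ker ⊓ θ₂.ker := by
      ext y
      simp [MonoidHom.mem_ker, Prod.ext_iff]
    refine ⟨⟨(θ₁.prod θ₂).ker, G₁ × G₂, inferInstance, inferInstance, by
      rw [Nat.card_prod]; exact hP.mul hG₁ hG₂, θ₁.prod θ₂, ?_, rfl⟩, ?_, ?_⟩
    · rw [hk]
      exact hθ₁.inter hθ₂
    · intro y hy
      have hy' : x⁻¹ * φ y ∈ (θ₁.prod θ₂).ker := hy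
      rw [hk] at hy'
      exact hy'.1
    · intro y hy
      have hy' : x⁻¹ * φ y ∈ (θ₁.prod θ₂).ker := hy
      rw [hk] at hy'
      exact hy'.2
  have hnon : ∀ N : 𝒩, (C N).Nonempty := by
    rintro ⟨N, G, _, _, hG, θ, hθ, rfl⟩
    obtain ⟨x', hx'⟩ := h G hG θ hθ x
    refine ⟨x', ?_⟩
    change x⁻¹ * φ x' ∈ θ.ker
    rw [MonoidHom.mem_ker, map_mul, map_inv, hx', inv_mul_cancel]
  obtain ⟨x', hx'⟩ := IsCompact.nonempty_iInter_of_directed_nonempty_isCompact_isClosed C hdir hnon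
    (fun N => (hclosed N).isCompact) hclosed
  refine ⟨x', ?_⟩
  intro G _ _ hG θ hθ
  have h1 := Set.mem_iInter.mp hx' ⟨θ.ker, G, inferInstance, inferInstance, hG, θ, hθ, rfl⟩
  have h2 : x⁻¹ * φ x' ∈ θ.ker := h1
  rw [MonoidHom.mem_ker, map_mul, map_inv, inv_mul_eq_one] at h2
  exact h2.symm

end Basic

end Groth.Agent.Pi1.H538.ProP
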