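import Groth.Agent.Ega2.GeoRelDim
import Groth.Agent.Picfga.CurveRelDim

/-!
# The Krull dimension of a smooth scheme over a field is its relative dimension
-/

set_option autoImplicit false

universe u

open CategoryTheory CategoryTheory.Limits AlgebraicGeometry

namespace Groth.Agent.Pi1.H538.RelDimOne

theorem topologicalKrullDim_eq (k : Type u) [Field k] (X : Scheme.{u})
    (f : X ⟶ Spec (CommRingCat.of k)) (n : ℕ) [hf : SmoothOfRelativeDimension n f]
    [IsIntegral X] : topologicalKrullDim X = n := by
  have : Smooth f := SmoothOfRelativeDimension.smooth n f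
  have key : ∀ x : X, ∃ V : X.Opens, x ∈ V ∧ topologicalKrullDim (V : Set X) = n := by
    intro x
    obtain ⟨m, V, hV, hxV, ⟨U, hU, e, hs⟩, hdim, -⟩ := Picfga.CurveRelDim.exists_local_data k X f x
    refine ⟨V, hxV, ?_⟩
    rw [Picfga.CurveRelDim.topologicalKrullDim_of_isAffineOpen hV, hdim]
    have h1 : SmoothOfRelativeDimension m (V.ι ≫ f) :=
      Ega2.GeoRelDim.smoothOfRelativeDimension_ι_comp f m U hU V hV e hs
    have h2 : SmoothOfRelativeDimension n (V.ι ≫ f) := by
      have h0 : SmoothOfRelativeDimension 0 V.ι := inferInstance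
      have h3 := smoothOfRelativeDimension_comp (n := 0) (m := n) V.ι f
      simpa using h3
    rw [Ega2.GeoRelDim.relDim_unique (V.ι ≫ f) m n h1 h2 ⟨x, hxV⟩]
  choose V hxV hdim using key
  have h1 : topologicalKrullDim X = ⨆ y, topologicalKrullDim (V y : Set X) :=
    Groth.Agent.VarietyB.DimTop.topologicalKrullDim_eq_iSup_of_cover V fun y => ⟨y, hxV y⟩
  simp_rw [hdim, ciSup_const] at h1
  exact h1

end Groth.Agent.Pi1.H538.RelDimOne
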